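import Mathlib
import Cfsg.Prelude.Def_Local
import Cfsg.Agent.Lib.L33.Red1

/-! Standard subgroups of type `L₃(3)`: the setting after the reductions. -/

set_option autoImplicit false

namespace CfsgLib.L33X

open Subgroup Cfsg CfsgLib.Tech CfsgLib.L33

variable {G : Type*} [Group G]

/-- `G = K ⟨t⟩` with `K` simple, `L = ι.range ≤ K` is a standard subgroup centralised by `t`, and `D` is the frame of
`C(t)`; `D.L = L × O` with `O` of odd order. -/
structure St {X : Type*} [Group X] (M : L33.Mod X) (ι : X →* G) (K : Subgroup G) (D : Fr G) : Prop where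
  inj : Function.Injective ι
  sX : IsSimpleGroup X
  nrm : K.Normal
  simple : IsSimpleGroup K
  nab : ¬ IsMulCommutative K
  cen : centralizer (K : Set G) = ⊥
  top : K ⊔ zpowers D.t = ⊤
  std : IsStandardSubgroup ι.range
  LK : ι.range ≤ K
  tC : ∀ l, D.t * ι l = ι l * D.t
  hx : D.x = ι M.x
  he : D.e = ι M.e
  hτ : D.τ = 1 ∨ ∀ l, D.τ * ι l * D.τ⁻¹ = ι (M.τ l)
  LD : ι.range ≤ D.L
  DL : ∀ h ∈ D.L, ∃ l, ∃ o ∈ centralizer (ι.range : Set G), Odd (orderOf o) ∧ h = ι l * o

end CfsgLib.L33X
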