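import Mathlib
import Cfsg.Agent.Lib.L33.Main

/-! Standard subgroups of type `L₃(3)`: translations of `t E` and the centre of a Sylow 2-subgroup. -/

set_option autoImplicit false
set_option linter.unusedSectionVars false

namespace CfsgLib.L33X

open Subgroup CfsgLib.Tech CfsgLib.L33 CfsgLib.L33.Fr CfsgLib.L33.Fr.Nrm CfsgLib.L33.Fr.Al1

variable {G : Type*} [Group G] [Finite G]

/-- the frames have the same `t`, `z`, `e` -/
def Sz (D' D : Fr G) : Prop := D'.t = D.t ∧ D'.z = D.z ∧ D'.e = D.e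

theorem Sz.rfl' (D : Fr G) : Sz D D := ⟨rfl, rfl, rfl⟩

theorem Sz.trans' {A B C : Fr G} (h : Sz A B) (k : Sz B C) : Sz A C :=
  ⟨h.1.trans k.1, h.2.1.trans k.2.1, h.2.2.trans k.2.2⟩

theorem fus_th0 (D : Fr G) : ∃ D' : Fr G, Sz D' D ∧ ∃ θ, D'.Th0 θ := by
  obtain ⟨θ, hL, (h1 : θ * D.z * θ⁻¹ = D.e), (h2 : θ * D.e * θ⁻¹ = D.e * D.z)⟩ := D.θ0
  have h0 : θ * D.t = D.t * θ := mem_centralizer_singleton_iff.1 (D.LH hL)
  obtain ⟨n, hn, hA⟩ := D.sylA.frattini (g := θ) (norm_cent fun c hc => by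
    have a1 := hc D.z (by simp)
    have a2 := hc D.e (by simp)
    rintro _ (rfl | rfl | rfl)
    · rw [fix h0]; exact hc _ (by simp)
    · rwa [h1]
    · rw [h2]; exact com_mul a2 a1)
  have nz := (hn D.z (by simp)).symm
  have ne := (hn D.e (by simp)).symm
  have g0 : n * θ * D.t = D.t * (n * θ) := com_mul (hn D.t (by simp)).symm h0
  have g1 : n * θ * D.z * (n * θ)⁻¹ = D.e := by rw [cj2, h1, fix ne]
  have g2 : n * θ * D.e * (n * θ)⁻¹ = D.e * D.z := by rw [cj2, h2, cjm, fix ne, fix nz]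
  generalize n * θ = φ at hA g0 g1 g2
  have g3 := θ_ez g1 g2
  obtain ⟨v, hv, e⟩ := conj_τ_eq hA g0
  by_cases hτ : D.τ = 1
  · exact ⟨D, Sz.rfl' D, φ, g0, by simp [hτ], g1, g2⟩
  have key := fix (D.cent_of_norm (mul_mem (mul_mem (mul_mem hA (f_norm D)) hA) (f_norm D))
    (com_mul (com_mul (com_mul g0 D.c_tf.symm) g0) D.c_tf.symm)
    (com (by rw [cj2, cj2, cj2, f_z, g1, f_e, g3])) (com (by rw [cj2, cj2, cj2, f_e, g3, f_z, g1])))
  rw [cj2, cj2, cj2, fix D.c_τf.symm, e, cjm D.f, fix D.c_τf.symm, cjm, e, mul_assoc D.τ, mul_eq_left] at key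
  rcases D.mem_E.1 hv with rfl | rfl | rfl | rfl
  · exact ⟨D, Sz.rfl' D, φ, g0, com (by rw [e, mul_one]), g1, g2⟩
  · rw [f_z, g1, D.c_ze] at key
    exact absurd key (ez1 D)
  · rw [f_e, g3] at key
    exact absurd key (ez1 D)
  · obtain ⟨D', a1, a2, a3, a4, -⟩ := D.exists_ch hτ (k := D.z) (D.mem_V.2 (by simp))
    have a5 : D'.z = D.z := by rw [Fr.z, a2]; rfl
    refine ⟨D', ⟨a1, a5, a3⟩, φ, by rwa [a1], com ?_, by rwa [a5, a3], by rwa [a5, a3]⟩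
    rw [a4, cjm, g1, e, ← mul_assoc, ← mul_assoc, ← D.c_τe, mul_assoc D.τ, D.ee, mul_one, D.c_τz]

theorem fus_sm {D : Fr G} {θ : G} (hθ : D.Th0 θ) (hm : D.Sm) : ∃ D' : Fr G, Sz D' D ∧ ∃ θ n p, D'.Act θ n p := by
  obtain ⟨n, hn, nt, nz, ne⟩ := exists_n hθ fun g hg => mem_normalizer_of_forall fun v hv => by
    have h1 := hθ.mem_E hm (conj_mem_of_mem_normalizer hg (t_A D)) (isConj_iff.2 ⟨g, rfl⟩)
    have h2 := hθ.mem_E hm (conj_mem_of_mem_normalizer hg (mul_mem (t_A D) (E_le_A D hv)))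
      ((D.conj_t_mul (D.E_le_Dg hv) (D.A_sq (E_le_A D hv))).trans (isConj_iff.2 ⟨g, rfl⟩))
    convert mul_mem (inv_mem h1) h2 using 1
    group
  have key : n * D.τ = D.τ * n → ∃ D' : Fr G, Sz D' D ∧ ∃ θ n p, D'.Act θ n p := fun h =>
    ⟨D, Sz.rfl' D, θ, n, 1, hθ, hm.1, nt, nz, h, by simp, by simp, by simp, Or.inl ⟨rfl, hm, fix ne⟩⟩
  by_cases hτ : D.τ = 1
  · exact key (by simp [hτ])
  refine (star hθ hτ hn nt nz ne).elim key fun h => ?_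
  obtain ⟨D', a1, a2, a3, a4, a5, -, a6⟩ := ch_t hθ hτ
  have hm' : D'.Sm := ⟨by rw [a1, a4]; exact hm.2 hτ, fun _ => by rw [a5, a1]; exact hm.1⟩
  exact ⟨D', ⟨a1, a2, a3⟩, θ, n, 1, a6, hm'.1, by rwa [a1, a2], by rwa [a2], by rwa [a4], by simp, by simp, by simp,
    Or.inl ⟨rfl, hm', by rw [a3, fix ne]⟩⟩

theorem fus_act (D : Fr G) : ∃ D' : Fr G, Sz D' D ∧ ∃ θ n p, D'.Act θ n p := by
  obtain ⟨D₁, e₁, θ, hθ⟩ := fus_th0 D
  suffices h : ∃ D' : Fr G, Sz D' D₁ ∧ ∃ θ n p, D'.Act θ n p from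
    let ⟨D', a, b⟩ := h; ⟨D', a.trans' e₁, b⟩
  by_cases hm : D₁.Sm
  · exact fus_sm hθ hm
  have hτ : D₁.τ ≠ 1 := fun e => hm ⟨fun h => D₁.conj_ne h e, fun h => absurd e h⟩
  by_cases h1 : IsConj D₁.t D₁.τ
  · obtain ⟨D', a1, a2, a3, a4, a5, a6, a7⟩ := ch_t hθ hτ
    exact ⟨D', ⟨a1, a2, a3⟩, θ, caseOne a7 a6 (by rw [a1, a4]; exact caseBoth hθ hτ h1) (by rwa [a5, a1])⟩
  · exact ⟨D₁, Sz.rfl' _, θ, caseOne hθ hτ h1 (by by_contra h; exact hm ⟨h1, fun _ => h⟩)⟩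

theorem fus_tr (D : Fr G) : ∃ D' : Fr G, Sz D' D ∧ ∃ a p θ, D'.Tr a p θ := by
  obtain ⟨D', e, θ, n, p, h⟩ := fus_act D
  refine ⟨D', e, ?_⟩
  rcases h.hp with ⟨-, -, hn⟩ | ⟨hτ, hp, hn | hn⟩
  · exact h.exists_tr hn
  · exact h.exists_tr hn
  · obtain ⟨a, p', C⟩ := h.exists_gc hτ hp hn
    exact C.false.elim

/-- `t` is conjugate to `t z` in `C(z, e)` -/
theorem exists_a (D : Fr G) : ∃ a : G, a * D.z = D.z * a ∧ a * D.e = D.e * a ∧ a * D.t * a⁻¹ = D.t * D.z := by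
  obtain ⟨D', ⟨h1, h2, h3⟩, a, p, θ, h⟩ := fus_tr D
  exact ⟨a, h2 ▸ h.az, h3 ▸ h.ae, h1 ▸ h2 ▸ h.at'⟩

/-- `t` is conjugate to `t e` in `C(z, e)` -/
theorem exists_b (D : Fr G) : ∃ b : G, b * D.z = D.z * b ∧ b * D.e = D.e * b ∧ b * D.t * b⁻¹ = D.t * D.e := by
  obtain ⟨D', ⟨h1, h2, h3⟩, a, p, θ, h⟩ := fus_tr D
  exact ⟨θ * a * θ⁻¹, h2 ▸ h.bz, h3 ▸ h.be, h1 ▸ h3 ▸ h.bt⟩

/-- `t` is not central in a Sylow 2-subgroup containing `S` -/
theorem not_cen (D : Fr G) {T : Subgroup G} (hT : IsSylowIn 2 T ⊤) (hS : D.S ≤ T)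
    (h : ∀ g ∈ T, g * D.t = D.t * g) : False := by
  have : Fact (Nat.Prime 2) := ⟨Nat.prime_two⟩
  have e : T = D.S := le_antisymm (fun g hg => D.mem_S_of hT.pgroup hS hg (h g hg)) hS
  obtain ⟨g, hg, hn⟩ := D.exists_conj_S (s := D.t * D.z) D.tz D.two_S fun v hv => by
    have a1 : v * D.t = D.t * v := mem_centralizer_singleton_iff.1 (D.syl.le hv)
    have a2 : v * D.z = D.z * v := by
      refine closure_induction (p := fun v _ => v * D.z = D.z * v) ?_ (by simp) (fun _ _ _ _ => com_mul)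
        (fun _ _ => com_inv) hv
      rintro _ (rfl | rfl | rfl | rfl)
      exacts [D.c_tz, D.c_τz, D.c_zx.symm, D.c_ze.symm]
    exact (com_mul a1.symm a2.symm).symm
  have gN : g ∈ normalizer (D.S : Set G) := mem_normalizer_of_forall hn
  obtain ⟨c, hc, o, ho, rfl, h2, hodd⟩ := exists_split g
  have cS : c ∈ D.S := by
    have := hT.le_of_normalizes h2 le_top (e ▸ (zpowers_le.2 (zpowers_le.2 gN hc)))
    exact e ▸ this (mem_zpowers c)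
  have oN : o ∈ normalizer (D.S : Set G) := zpowers_le.2 gN ho
  have ct : c * D.t = D.t * c := mem_centralizer_singleton_iff.1 (D.syl.le cS)
  have o1 : o * (D.t * D.z) * o⁻¹ = D.t := by
    rw [cj2] at hg
    calc _ = c⁻¹ * (c * (o * (D.t * D.z) * o⁻¹) * c⁻¹) * c := by group
      _ = _ := by rw [hg, mul_assoc, ← ct, inv_mul_cancel_left]
  have zS : D.z ∈ D.S := D.Dg_le_S (D.E_le_Dg (z_E D))
  have cz : ∀ s ∈ D.S, o * D.z * o⁻¹ * s = s * (o * D.z * o⁻¹) := fun s hs => by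
    have h1 : o⁻¹ * s * o⁻¹⁻¹ ∈ D.S := conj_mem_of_mem_normalizer (inv_mem oN) hs
    have a2 : ∀ v ∈ D.S, v * D.z = D.z * v := fun v hv => by
      refine closure_induction (p := fun v _ => v * D.z = D.z * v) ?_ (by simp) (fun _ _ _ _ => com_mul)
        (fun _ _ => com_inv) hv
      rintro _ (rfl | rfl | rfl | rfl)
      exacts [D.c_tz, D.c_τz, D.c_zx.symm, D.c_ze.symm]
    have := a2 _ h1
    calc o * D.z * o⁻¹ * s = o * (D.z * (o⁻¹ * s * o⁻¹⁻¹)) * o⁻¹ := by group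
      _ = _ := by rw [← this]; group
  have hz : ¬ IsConj D.t (o * D.z * o⁻¹) := not_conj o (D.not_conj_Dg (D.E_le_Dg (z_E D)))
  rcases D.mem_V.1 (D.cent_S (conj_mem_of_mem_normalizer oN zS) (cz _ D.syl_xS)
    (cz _ (D.Dg_le_S (D.E_le_Dg (e_E D))))) with k | k | k | k
  · exact conj_ne_one D.z1 k
  · exact hz (k ▸ IsConj.refl _)
  · refine D.z1 (odd_cent (u := D.t) hodd ?_ (com k) (k := 1) (by rw [pow_one, pow_two, D.zz]))
    rw [cjm, k] at o1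
    rw [← mul_left_inj D.z, o1, mul_assoc, D.zz, mul_one]
  · exact hz (k ▸ D.tz)

/-- the centre of a Sylow 2-subgroup containing `S` is `⟨z⟩` -/
theorem cen_syl (D : Fr G) {T : Subgroup G} (hT : IsSylowIn 2 T ⊤) (hS : D.S ≤ T) {c : G} (hc : c ∈ T)
    (h : ∀ g ∈ T, g * c = c * g) : c = 1 ∨ c = D.z := by
  have tS : D.t ∈ D.S := subset_closure (by simp)
  rcases D.mem_V.1 (D.cent_S (D.mem_S_of hT.pgroup hS hc (h _ (hS tS)).symm) (h _ (hS D.syl_xS)).symm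
    (h _ (hS (D.Dg_le_S (D.E_le_Dg (e_E D))))).symm) with k | k | k | k
  · exact .inl k
  · exact (not_cen D hT hS (k ▸ h)).elim
  · exact .inr k
  · have h1 := D.card_le_S D.tz hT.pgroup (show ∀ g ∈ T, g * (D.t * D.z) = D.t * D.z * g from k ▸ h)
    rw [← D.card_S] at h1
    have e := eq_of_le_of_card_ge hS h1
    exact (not_cen D hT hS fun g hg => mem_centralizer_singleton_iff.1 (D.syl.le (show g ∈ D.S from e ▸ hg))).elim

/-- `z` is 2-central -/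
theorem syl_z (D : Fr G) {T : Subgroup G} (hT : IsSylowIn 2 T ⊤) (hS : D.S ≤ T) : ∀ g ∈ T, g * D.z = D.z * g := by
  have : Fact (Nat.Prime 2) := ⟨Nat.prime_two⟩
  have : Nontrivial T := ⟨⟨⟨D.t, hS (subset_closure (by simp))⟩, 1, fun e => D.rel.t1 (congrArg Subtype.val e)⟩⟩
  have := hT.pgroup.center_nontrivial
  obtain ⟨⟨c, hc⟩, h1⟩ := exists_ne (1 : center T)
  have h2 : ∀ g ∈ T, g * c = c * g := fun g hg => congrArg Subtype.val (mem_center_iff.1 hc ⟨g, hg⟩)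
  rcases cen_syl D hT hS c.2 h2 with k | k
  · exact absurd (Subtype.ext (Subtype.ext k)) h1
  · exact k ▸ h2

theorem exists_syl (D : Fr G) : ∃ T : Subgroup G, IsSylowIn 2 T ⊤ ∧ D.S ≤ T :=
  haveI : Fact (Nat.Prime 2) := ⟨Nat.prime_two⟩
  exists_isSylowIn_ge D.two_S le_top

end CfsgLib.L33X
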