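import Mathlib
import Cfsg.Agent.Lib.L33X.Fus
import Cfsg.Agent.Lib.Classical.SmallIso
import Cfsg.Agent.S4279

/-! Standard subgroups of type `L₃(3)`: the group `G₂(3)` does not occur. -/

set_option autoImplicit false
set_option linter.unusedSectionVars false

namespace CfsgLib.L33X

open Subgroup Cfsg CfsgLib.Tech CfsgLib.L33 CfsgLib.L33.Fr CfsgLib.L33.Fr.Nrm
open scoped MatrixGroups

variable {G : Type*} [Group G] [Finite G]

namespace G23

abbrev S3 := SL(2, ZMod 3)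

theorem inv3 : ∀ a : S3, a * a = 1 → a = 1 ∨ a = -1 := by decide +kernel

set_option synthInstance.maxSize 1000 in
set_option synthInstance.maxHeartbeats 200000 in
theorem six : ∀ y : S3, y * y = -1 → ∀ i : S3, i * i = -1 → y * i ≠ i * y → ∀ u : S3, u * u = -1 →
    u = y ∨ u = y * y * y ∨ u = i ∨ u = i * i * i ∨ u = y * i ∨ u = i * y := by decide +kernel

set_option synthInstance.maxSize 1000 in
set_option synthInstance.maxHeartbeats 200000 in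
theorem out : ∀ y : S3, y * y = -1 → ∀ i : S3, i * i = -1 → y * i ≠ i * y → ∀ a : S3, (a * a = 1 ∨ a * a = -1) →
    a * i ≠ y * i * a := by decide +kernel

/-- two commuting copies of `SL₂(3)` with common centre `⟨z⟩` -/
structure Tw (z : G) (φ ψ : S3 →* G) : Prop where
  iφ : Function.Injective φ
  iψ : Function.Injective ψ
  com : ∀ a b, φ a * ψ b = ψ b * φ a
  meet : ∀ a b, φ a = ψ b → φ a = 1 ∨ φ a = z
  zφ : φ (-1) = z
  zψ : ψ (-1) = z

variable {z : G} {φ ψ : S3 →* G}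

theorem Tw.symm (h : Tw z φ ψ) : Tw z ψ φ :=
  ⟨h.iψ, h.iφ, fun a b => (h.com b a).symm, fun a b e => e ▸ h.meet b a e.symm, h.zψ, h.zφ⟩

theorem Tw.sq (h : Tw z φ ψ) (a b : S3) : φ a * ψ b * (φ a * ψ b) = φ (a * a) * ψ (b * b) := by
  rw [map_mul, map_mul, mul_assoc, ← mul_assoc (ψ b), ← h.com, mul_assoc, mul_assoc]

theorem Tw.pm (h : Tw z φ ψ) {a b : S3} (e : φ a * ψ b = 1 ∨ φ a * ψ b = z) : a = 1 ∨ a = -1 := by
  have k : φ a = ψ b⁻¹ ∨ φ a = ψ (-1 * b⁻¹) := e.imp (fun e => by rw [map_inv, eq_inv_of_mul_eq_one_left e])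
    fun e => by rw [map_mul, h.zψ, map_inv, ← e, mul_inv_cancel_right]
  have : φ a = 1 ∨ φ a = z := k.elim (h.meet _ _) (h.meet _ _)
  exact this.imp (fun e => h.iφ (e.trans (map_one φ).symm)) fun e => h.iφ (e.trans h.zφ.symm)

theorem Tw.root (h : Tw z φ ψ) {a b : S3} (e : φ a * ψ b * (φ a * ψ b) = z) :
    (∃ c, φ c = φ a * ψ b) ∨ ∃ c, ψ c = φ a * ψ b := by
  rw [h.sq] at e
  rcases h.pm (.inr e) with k | k
  · rcases inv3 a k with rfl | rfl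
    · exact .inr ⟨b, by simp⟩
    · exact .inr ⟨-1 * b, by rw [map_mul, h.zψ, h.zφ]⟩
  · rw [k, h.zφ, mul_eq_left] at e
    rcases inv3 b (h.iψ (e.trans (map_one ψ).symm)) with rfl | rfl
    · exact .inl ⟨a, by simp⟩
    · exact .inl ⟨a * -1, by rw [map_mul, h.zψ, h.zφ]⟩

theorem key (D : Fr G) (h : Tw D.z φ ψ) {C Y : Subgroup G} (hY : ∀ g ∈ Y, ∃ a b, g = φ a * ψ b)
    (idx : ∀ g ∈ C, ∀ k ∈ C, g ∉ Y → k ∉ Y → g * k ∈ Y) (eC : D.e ∈ C)
    (hC : ∀ g, g * D.z = D.z * g → g ∈ C ∨ D.t * g ∈ C) {y i : S3} (hy : φ y = D.y) (hi : φ i = D.i) : False := by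
  have y2 : y * y = -1 := h.iφ (by rw [map_mul, hy, D.yy, h.zφ])
  have i2 : i * i = -1 := h.iφ (by rw [map_mul, hi, D.ii, h.zφ])
  have yi : y * i ≠ i * y := fun e => D.z1 (by
    have := congrArg φ e
    rw [map_mul, map_mul, hy, hi, D.yi] at this
    exact left_eq_mul.1 this)
  have ei : D.e * D.i * D.e⁻¹ = D.y * D.i := by
    rw [Fr.i, Fr.y, inv_eq_of_mul_eq_one_right D.ee, ← mul_assoc, D.rel.ex, ← mul_assoc, ← pow_succ]
  have ey : D.e * D.y * D.e⁻¹ = D.y * D.y * D.y := by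
    rw [Fr.y, ← conj_pow, inv_eq_of_mul_eq_one_right D.ee, D.rel.ex, ← pow_mul, ← pow_add, ← pow_add]
  have eY : D.e ∉ Y := fun k => by
    obtain ⟨a, b, k⟩ := hY _ k
    refine out y y2 i i2 yi a (h.pm (b := b * b) (.inl (by rw [← h.sq, ← k, D.ee]))) (h.iφ ?_)
    rw [k, ← hi, ← hy, mul_assoc (φ a), ← h.com, mul_inv_eq_iff_eq_mul, ← mul_assoc, ← mul_assoc, mul_left_inj] at ei
    rw [map_mul, map_mul, map_mul, ei]
  let Q : Subgroup G := closure {D.y, D.i}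
  have yQ : D.y ∈ Q := subset_closure (by simp)
  have iQ : D.i ∈ Q := subset_closure (by simp)
  have uQ : ∀ u : S3, u * u = -1 → φ u ∈ Q := fun u hu => by
    rcases six y y2 i i2 yi u hu with rfl | rfl | rfl | rfl | rfl | rfl <;> simp only [map_mul, hy, hi]
    exacts [yQ, mul_mem (mul_mem yQ yQ) yQ, iQ, mul_mem (mul_mem iQ iQ) iQ, mul_mem yQ iQ, mul_mem iQ yQ]
  have nm : ∀ g, g * D.y * g⁻¹ ∈ Q → g * D.i * g⁻¹ ∈ Q → g ∈ normalizer (Q : Set G) := fun g a b =>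
    norm_of rfl (by rintro _ (rfl | rfl); exacts [a, b])
  have tN : D.t ∈ normalizer (Q : Set G) := nm _ (by rwa [fix D.c_ty]) (by rwa [fix D.c_ti])
  have eN : D.e ∈ normalizer (Q : Set G) := nm _ (ey ▸ mul_mem (mul_mem yQ yQ) yQ) (ei ▸ mul_mem yQ iQ)
  have YN : ∀ g ∈ Y, g ∈ normalizer (Q : Set G) := fun g hg => by
    obtain ⟨a, b, rfl⟩ := hY _ hg
    have c : ∀ u : S3, u * u = -1 → φ a * φ u * (φ a)⁻¹ ∈ Q := fun u hu => by
      rw [← map_inv, ← map_mul, ← map_mul]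
      exact uQ _ (by rw [conj_mul, hu, mul_neg, neg_mul, mul_one, mul_inv_cancel])
    exact mul_mem (nm _ (hy ▸ c y y2) (hi ▸ c i i2))
      (nm _ (by rwa [← hy, fix (h.com _ _).symm, hy]) (by rwa [← hi, fix (h.com _ _).symm, hi]))
  have CN : ∀ g ∈ C, g ∈ normalizer (Q : Set G) := fun g hg => by
    by_cases k : g ∈ Y
    · exact YN g k
    · exact (mul_mem_cancel_left eN).1 (YN _ (idx _ eC _ hg eY k))
  obtain ⟨b, bz, -, bt⟩ := exists_b D
  have bN : b ∈ normalizer (Q : Set G) := (hC b bz).elim (CN _) fun k => (mul_mem_cancel_left tN).1 (CN _ k)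
  have Qt : Q ≤ centralizer {D.t} := (closure_le _).2 (by
    rintro _ (rfl | rfl)
    exacts [mem_centralizer_singleton_iff.2 D.c_ty.symm, mem_centralizer_singleton_iff.2 D.c_ti.symm])
  have k := mem_centralizer_singleton_iff.1 (Qt (conj_mem_of_mem_normalizer (inv_mem bN) iQ))
  have k2 : D.t * D.e * D.i = D.i * (D.t * D.e) := by
    rw [← bt]
    calc _ = b * (D.t * (b⁻¹ * D.i * b⁻¹⁻¹)) * b⁻¹ := by group
      _ = _ := by rw [← k]; group
  rw [← mul_assoc, ← D.c_ti, mul_assoc, mul_assoc, mul_right_inj] at k2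
  rw [fix k2, right_eq_mul] at ei
  exact D.z1 (by rw [← D.yy, ei, one_mul])

theorem false_of (D : Fr G) (h : Tw D.z φ ψ) {C Y : Subgroup G} (hY : ∀ g ∈ Y, ∃ a b, g = φ a * ψ b)
    (idx : ∀ g ∈ C, ∀ k ∈ C, g ∉ Y → k ∉ Y → g * k ∈ Y) (LC : ∀ g ∈ D.L, g * D.z = D.z * g → g ∈ C)
    (hC : ∀ g, g * D.z = D.z * g → g ∈ C ∨ D.t * g ∈ C) : False := by
  have sq : ∀ g ∈ C, g * g ∈ Y := fun g hg => by
    by_cases k : g ∈ Y
    exacts [mul_mem k k, idx _ hg _ hg k k]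
  have xC := LC _ D.xL D.c_zx.symm
  have eC := LC _ D.eL D.c_ze.symm
  obtain ⟨ρ, hρ, (r1 : ρ * D.y * ρ⁻¹ = D.i), -⟩ := D.ρ0
  have ρC := LC _ hρ (com (by rw [← D.yy, cjm, r1, D.ii, D.yy]))
  have yY : D.y ∈ Y := D.xx ▸ sq _ xC
  have iY : D.i ∈ Y := by
    rw [← r1, ← D.xx, cjm]
    exact sq _ (mul_mem (mul_mem ρC xC) (inv_mem ρC))
  have hY' : ∀ g ∈ Y, ∃ a b, g = ψ a * φ b := fun g hg => let ⟨a, b, e⟩ := hY g hg; ⟨b, a, e.trans (h.com a b)⟩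
  have nc : D.y * D.i ≠ D.i * D.y := fun e => D.z1 (left_eq_mul.1 (e.trans D.yi))
  obtain ⟨a, b, e1⟩ := hY _ yY
  obtain ⟨c, d, e2⟩ := hY _ iY
  rcases h.root (e1 ▸ D.yy) with ⟨y, hy⟩ | ⟨y, hy⟩ <;> rcases h.root (e2 ▸ D.ii) with ⟨i, hi⟩ | ⟨i, hi⟩ <;>
    rw [← e1] at hy <;> rw [← e2] at hi
  · exact key D h hY idx eC hC hy hi
  · exact nc (by rw [← hy, ← hi, h.com])
  · exact nc (by rw [← hy, ← hi, h.com])
  · exact key D h.symm hY' idx eC hC hy hi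

end G23

/-- the configuration `C_K(z) = (SL₂(3) ∘ SL₂(3)).2` is impossible -/
theorem no_two3 (D : Fr G) {K : Subgroup G} (hG : ∀ g, g ∈ K ∨ D.t * g ∈ K) (DK : D.L ≤ K)
    {X : Type*} [Group X] (e : K ≃* X) {F : Type*} [Field F] [Fintype F] (hF : Fintype.card F = 3) {j : X}
    (hj : ((e.symm j : K) : G) = D.z) {L₁ L₂ : Subgroup X} (e₁ : L₁ ≃* SL(2, F)) (e₂ : L₂ ≃* SL(2, F))
    (com : ∀ x ∈ L₁, ∀ y ∈ L₂, x * y = y * x) (meet : L₁ ⊓ L₂ = zpowers j)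
    (idx : (L₁ ⊔ L₂).relIndex (centralizer {j}) = 2) : False := by
  let s : SL(2, F) ≃* G23.S3 := Classical.slMapEquiv (FiniteField.ringEquivOfCardEq (hF.trans (ZMod.card 3).symm))
  let π : X →* G := K.subtype.comp e.symm.toMonoidHom
  have iπ : Function.Injective π := Subtype.val_injective.comp e.symm.injective
  have πj : π j = D.z := hj
  let μ : ∀ L : Subgroup X, L ≃* SL(2, F) → G23.S3 →* X := fun L f => L.subtype.comp (f.trans s).symm.toMonoidHom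
  have iμ : ∀ L f, Function.Injective (π.comp (μ L f)) := fun L f =>
    iπ.comp (Subtype.val_injective.comp (f.trans s).symm.injective)
  have mμ : ∀ L f a, μ L f a ∈ L := fun L f a => ((f.trans s).symm a).2
  have sμ : ∀ L f, ∀ x ∈ L, ∃ a, μ L f a = x := fun L f x hx => ⟨(f.trans s) ⟨x, hx⟩, by simp [μ]⟩
  have zμ : ∀ L f, j ∈ L → π.comp (μ L f) (-1) = D.z := fun L f hx => by
    obtain ⟨a, ha⟩ := sμ L f j hx
    have h1 : π.comp (μ L f) a = D.z := by rw [MonoidHom.comp_apply, ha, πj]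
    rcases G23.inv3 a (iμ L f (by rw [map_mul, h1, D.zz, map_one])) with rfl | rfl
    · exact absurd (h1.symm.trans (map_one _)) D.z1
    · exact h1
  have jm : j ∈ L₁ ⊓ L₂ := meet ▸ mem_zpowers j
  have mC : ∀ g ∈ K, g * D.z = D.z * g → g ∈ (centralizer {j}).map π := fun g hg h =>
    ⟨e ⟨g, hg⟩, mem_centralizer_singleton_iff.2 (iπ (by rw [map_mul, map_mul, πj]; simpa [π] using h)), by simp [π]⟩
  refine G23.false_of D (φ := π.comp (μ L₁ e₁)) (ψ := π.comp (μ L₂ e₂)) (C := (centralizer {j}).map π)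
    (Y := (L₁ ⊔ L₂).map π) ⟨iμ _ _, iμ _ _, fun a b => ?_, fun a b h => ?_, zμ _ _ jm.1, zμ _ _ jm.2⟩ ?_ ?_
    (fun g hg => mC g (DK hg)) fun g h => (hG g).imp (fun k => mC g k h) fun k => mC _ k (com_mul D.c_tz h)
  · simp only [MonoidHom.comp_apply, ← map_mul, com _ (mμ _ _ a) _ (mμ _ _ b)]
  · have h1 : μ L₁ e₁ a ∈ zpowers j := meet ▸ ⟨mμ _ _ a, (iπ h) ▸ mμ _ _ b⟩
    obtain ⟨n, hn⟩ := h1
    rw [MonoidHom.comp_apply, ← hn, map_zpow, πj]
    have z2 : D.z ^ (2 : ℤ) = 1 := by rw [zpow_two, D.zz]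
    rcases Int.even_or_odd' n with ⟨k, rfl | rfl⟩
    · exact .inl (by rw [zpow_mul, z2, one_zpow])
    · exact .inr (by rw [zpow_add, zpow_mul, z2, one_zpow, one_mul, zpow_one])
  · rintro _ ⟨x, hx, rfl⟩
    have n : L₁ ≤ normalizer (L₂ : Set X) := fun a ha => mem_normalizer_iff.2 fun b => by
      refine ⟨fun hb => by rwa [com a ha b hb, mul_inv_cancel_right], fun hb => ?_⟩
      have := com a ha _ hb
      rw [inv_mul_cancel_right, mul_right_inj] at this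
      exact this ▸ hb
    have hx' : x ∈ ((L₁ ⊔ L₂ : Subgroup X) : Set X) := hx
    rw [coe_mul_of_left_le_normalizer_right _ _ n] at hx'
    obtain ⟨a, ha, b, hb, rfl⟩ := hx'
    obtain ⟨a, rfl⟩ := sμ _ e₁ a ha
    obtain ⟨b, rfl⟩ := sμ _ e₂ b hb
    exact ⟨a, b, map_mul _ _ _⟩
  · rintro _ ⟨g, hg, rfl⟩ _ ⟨k, hk, rfl⟩ h1 h2
    refine ⟨g * k, ?_, map_mul _ _ _⟩
    have := (mul_mem_iff_of_index_two (H := (L₁ ⊔ L₂).subgroupOf (centralizer {j})) idx (a := ⟨g, hg⟩) (b := ⟨k, hk⟩)).2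
      (iff_of_false (fun h => h1 ⟨g, h, rfl⟩) fun h => h2 ⟨k, h, rfl⟩)
    exact this

/-- `K` is not `G₂(3)` -/
theorem no_g23 (D : Fr G) {K : Subgroup G} (hG : ∀ g, g ∈ K ∨ D.t * g ∈ K) (DK : D.L ≤ K)
    {F : Type*} [Field F] [Fintype F] (hF : Fintype.card F = 3) (e : K ≃* Lie.chevG2.group F) : False := by
  have zK : D.z ∈ K := DK (pow_mem D.xL 4)
  have := Fact.mk Nat.prime_two
  obtain ⟨-, L₁, L₂, ⟨e₁⟩, ⟨e₂⟩, h1, h2, -, h3⟩ := Cfsg.Agent.S4279.result (F := F) (by rw [hF]; decide) (e ⟨_, zK⟩)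
    (by rw [e.orderOf_eq, ← orderOf_coe]; exact orderOf_eq_prime (by rw [pow_two]; exact D.zz) D.z1)
  exact no_two3 D hG DK e hF (by simp) e₁ e₂ h1 h2 h3

end CfsgLib.L33X
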